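import Cfsg.Agent.Lib.BG.Hall
import Cfsg.Agent.Lib.Inv.SylowTwo
import Cfsg.Agent.Lib.Inv.Count

/-! If the centralizer of every real element of odd order is transitive on the Sylow 2-subgroups,
then `Ω₁ Z(T)` normalizes a nontrivial cyclic group of odd order (or lies in `O₂(G)`). -/

set_option autoImplicit false

namespace Cfsg.Lib.RCl

open Subgroup Cfsg Cfsg.Lib Cfsg.Lib.BG Cfsg.Lib.Transfer

variable {G : Type*} [Group G] [Finite G]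

/-- `G = N(T) C(y)` for all real `y ≠ 1` of odd order. -/
def HT (T : Subgroup G) : Prop :=
  ∀ y : G, y ≠ 1 → Odd (orderOf y) → IsConj y y⁻¹ → ∀ g : G, ∃ n ∈ 𝐍(T), ∃ c ∈ 𝐂[y], g = n * c

/-- `a` is conjugate to an element of `Ω₁ Z(T)`. -/
def Cz (T : Subgroup G) (a : G) : Prop := a * a = 1 ∧ ∃ g : G, a ∈ 𝐙(g ⋆ T)

omit [Finite G] in
theorem mem_of_sq_mem {H : Subgroup G} {w : G} (ho : Odd (orderOf w)) (h : w * w ∈ H) : w ∈ H := by
  obtain ⟨k, hk⟩ := ho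
  have : w = ((w * w) ^ k)⁻¹⁻¹⁻¹ := by
    rw [inv_inv, eq_inv_iff_mul_eq_one, ← sq, ← pow_mul, ← pow_succ', ← hk, pow_orderOf_eq_one]
  rw [this]
  exact inv_mem (inv_mem (inv_mem (pow_mem h k)))

omit [Finite G] in
theorem Cz.conj {T : Subgroup G} {a : G} (h : Cz T a) (c : G) : Cz T (c * a * c⁻¹) := by
  obtain ⟨h1, g, h2⟩ := h
  refine ⟨by calc _ = c * (a * a) * c⁻¹ := by group
    _ = 1 := by rw [h1]; group, c * g, ?_⟩
  rw [← conj_conj]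
  refine ⟨conj_mem_conj.2 h2.1, ?_⟩
  have := (conj_mem_conj (g := c)).2 h2.2
  rwa [conj_centralizer] at this

variable {T : Subgroup G}

theorem HT.trans (h : HT T) (hT : Syl 2 T ⊤) {y : G} (h1 : y ≠ 1) (ho : Odd (orderOf y))
    (hr : IsConj y y⁻¹) (g : G) {Y : Subgroup G} (hY : IsPGroup 2 Y) :
    ∃ c ∈ 𝐂[y], c ⋆ Y ≤ g ⋆ T := by
  obtain ⟨u, -, hu⟩ := hT.exists_conj_le hY le_top
  obtain ⟨n, hn, c, hc, e⟩ := h y h1 ho hr u
  obtain ⟨n', hn', c', hc', e'⟩ := h y h1 ho hr g⁻¹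
  refine ⟨c'⁻¹ * c, mul_mem (inv_mem hc') hc, ?_⟩
  have e1 : c ⋆ Y ≤ T := by
    have : c = n⁻¹ * u := by rw [e]; group
    rw [this, ← conj_conj]
    exact conj_le_of_norm hu (inv_mem hn)
  have e2 : g = c'⁻¹ * n'⁻¹ := by rw [← mul_inv_rev, ← e', inv_inv]
  rw [e2, ← conj_conj, ← conj_conj, conj_eq_of_norm (inv_mem hn')]
  exact conj_mono _ e1

/-- An invariant 2-subgroup is moved into `T^g ∩ C(w)`. -/
theorem HT.inv_le (h : HT T) (hT : Syl 2 T ⊤) {w a g : G} (h1 : w ≠ 1) (ho : Odd (orderOf w))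
    (h2 : a * a = 1) (ha : a ∈ 𝐙(g ⋆ T)) (hi : a * w * a⁻¹ = w⁻¹) {Y : Subgroup G}
    (hY : IsPGroup 2 Y) (hw : w ∈ 𝐍(Y)) : ∃ c ∈ 𝐂[w], c ⋆ Y ≤ g ⋆ T ⊓ 𝐂[w] := by
  obtain ⟨c, hc, hle⟩ := h.trans hT h1 ho (isConj_iff.2 ⟨a, hi⟩) g hY
  refine ⟨c, hc, le_inf hle (le_cent1_iff.2 (mem_of_sq_mem ho ?_))⟩
  have hw' : w ∈ 𝐍(c ⋆ Y) := by
    have := (conj_mem_conj (g := c)).2 hw
    rwa [conj_normalizer, mem_cent1.1 hc, mul_inv_cancel_right] at this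
  have ha' : a ∈ 𝐂(c ⋆ Y) := cent_anti hle ha.2
  have e : w * w = (w * a * w⁻¹) * a := by
    have ea : a⁻¹ = a := inv_eq_of_mul_eq_one_right h2
    calc w * w = w * (a * w * a⁻¹)⁻¹ := by rw [hi, inv_inv]
      _ = w * a * w⁻¹ * a⁻¹ := by group
      _ = _ := by rw [ea]
  rw [e]
  exact mul_mem (conj_mem_of_norm (norm_cent (zpowers_le.2 hw') (mem_zpowers w)) ha') ha'

omit [Finite G] in
theorem inv_pow_conj {a x : G} (hi : a * x * a⁻¹ = x⁻¹) (k : ℕ) : a * x ^ k * a⁻¹ = (x ^ k)⁻¹ := by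
  rw [← conj_pow, hi, inv_pow]

omit [Finite G] in
theorem inv_mul_conj {a b : G} (ha : a * a = 1) (hb : b * b = 1) :
    a * (a * b) * a⁻¹ = (a * b)⁻¹ := by
  have ea : a⁻¹ = a := inv_eq_of_mul_eq_one_right ha
  have eb : b⁻¹ = b := inv_eq_of_mul_eq_one_right hb
  rw [← mul_assoc, ha, one_mul, mul_inv_rev, ea, eb]

/-- The configuration in the proof. -/
structure Cf (T F : Subgroup G) : Prop where
  h : HT T
  hT : Syl 2 T ⊤
  hF : IsPGroup 2 F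
  mx : ∀ w a g : G, w ≠ 1 → Odd (orderOf w) → a * a = 1 → a ∈ 𝐙(g ⋆ T) → a * w * a⁻¹ = w⁻¹ →
    Nat.card ↥(g ⋆ T ⊓ 𝐂[w]) ≤ Nat.card F
  o2 : (pCore 2 𝐂(F)).map (𝐂(F)).subtype ≤ F

/-- The set `𝒟`. -/
def Dd (T F : Subgroup G) (a : G) : Prop := Cz T a ∧ a ∈ 𝐂(F) ∧ a ∉ F

variable {F : Subgroup G}

omit [Finite G] in
theorem Dd.conj {a c : G} (h : Dd T F a) (hc : c ∈ 𝐂(F)) : Dd T F (c * a * c⁻¹) :=
  ⟨h.1.conj c, mul_mem (mul_mem hc h.2.1) (inv_mem hc), fun h' => h.2.2 (by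
    have := conj_mem_of_norm' (cent_le_norm F hc) h'
    rwa [show c⁻¹ * (c * a * c⁻¹) * c = a by group] at this)⟩

theorem Cf.P (H : Cf T F) {w a : G} (h1 : w ≠ 1) (ho : Odd (orderOf w)) (ha : Cz T a)
    (hi : a * w * a⁻¹ = w⁻¹) (hwF : w ∈ 𝐂(F)) {Y : Subgroup G} (hY : IsPGroup 2 Y)
    (hYF : Y ≤ 𝐍(F)) (hw : w ∈ 𝐍(Y)) : Y ≤ F := by
  obtain ⟨h2, g, hg⟩ := ha
  obtain ⟨c, -, hc⟩ := H.h.inv_le H.hT h1 ho h2 hg hi (pgroup_sup H.hF hY hYF)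
    (norm_sup (zpowers_le.2 (cent_le_norm F hwF)) (zpowers_le.2 hw) (mem_zpowers w))
  have := (card_le_of_le hc).trans (H.mx w a g h1 ho h2 hg hi)
  rw [card_conj] at this
  rw [eq_of_le_of_card_le (le_sup_left : F ≤ F ⊔ Y) this]
  exact le_sup_right

theorem Cf.Q (H : Cf T F) {a : G} (ha : Dd T F a) {Y : Subgroup G} (hY : IsPGroup 2 Y)
    (hYF : Y ≤ 𝐂(F)) (haY : a ∈ Y) : Y ≤ 𝐂[a] := by
  obtain ⟨w, hwF, h1, ho, hi⟩ := Inv.exists_odd_inverted_of_not_mem_pCore_map ha.2.1 ha.1.1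
    fun h => ha.2.2 (H.o2 h)
  obtain ⟨h2, g, hg⟩ := ha.1
  obtain ⟨c, hc, hle⟩ := H.h.trans H.hT h1 ho (isConj_iff.2 ⟨a, hi⟩) g
    (pgroup_sup H.hF hY (hYF.trans (cent_le_norm F)))
  rw [conj_le_iff_le_inv_conj] at hle
  set S := c⁻¹ ⋆ (g ⋆ T) with hS
  have hSp : IsPGroup 2 S := (pgroup_conj _).2 ((pgroup_conj _).2 H.hT.pgroup)
  have hb : c⁻¹ * a * c⁻¹⁻¹ ∈ 𝐙(S) := by
    refine ⟨conj_mem_conj.2 hg.1, ?_⟩
    have := (conj_mem_conj (g := c⁻¹)).2 hg.2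
    rwa [conj_centralizer] at this
  set b := c⁻¹ * a * c⁻¹⁻¹ with hbd
  have hcw := mem_cent1.1 hc
  have hbi : b * w * b⁻¹ = w⁻¹ := by
    calc _ = c⁻¹ * (a * (c * w * c⁻¹) * a⁻¹) * c := by rw [hbd]; group
      _ = c⁻¹ * (c * w * c⁻¹)⁻¹ * c := by rw [hcw, mul_inv_cancel_right, hi]
      _ = _ := by group
  have hab : a * b⁻¹ ∈ S ⊓ 𝐂[w] := by
    refine mem_inf.2 ⟨mul_mem (hle (mem_sup_right haY)) (inv_mem (mem_inf.1 hb).1), mem_cent1.2 ?_⟩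
    calc a * b⁻¹ * w = a * b⁻¹ * (b * w * b⁻¹)⁻¹⁻¹⁻¹⁻¹⁻¹ := by rw [hbi]; simp
      _ = (a * w * a⁻¹)⁻¹ * (a * b⁻¹) := by group
      _ = _ := by rw [hi, inv_inv]
  have hFS : F ≤ S ⊓ 𝐂[w] := le_inf (le_sup_left.trans hle) (le_cent1_iff.2 hwF)
  have hSF : F = S ⊓ 𝐂[w] := by
    refine eq_of_le_of_card_le hFS ?_
    have := H.mx w b (c⁻¹ * g) h1 ho ((Cz.conj ⟨h2, g, hg⟩ c⁻¹).1) (by rwa [← conj_conj]) hbi
    rwa [← conj_conj] at this
  rw [← hSF] at hab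
  intro y hy
  rw [mem_cent1]
  have e1 := hYF hy _ hab
  have e2 := hb.2 y (hle (mem_sup_right hy))
  calc y * a = y * (a * b⁻¹) * b := by group
    _ = a * b⁻¹ * (y * b) := by rw [← e1]; group
    _ = _ := by rw [e2]; group

/-- Two members of `𝒟` commute, or the odd part of the product is nontrivial. -/
theorem Cf.dich (H : Cf T F) {a b : G} (ha : Dd T F a) (hb : Dd T F b) (hn : a * b ≠ b * a) :
    ∃ k : ℕ, (a * b) ^ 2 ^ k ≠ 1 ∧ Odd (orderOf ((a * b) ^ 2 ^ k)) := by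
  obtain ⟨k, hk⟩ := Inv.exists_pow_two_pow_odd (a * b)
  refine ⟨k, fun e => hn ?_, hk⟩
  have := H.Q ha (Inv.isPGroup_closure_pair ha.1.1 hb.1.1 e)
    ((closure_le _).2 (by rintro x (rfl | rfl); exacts [ha.2.1, hb.2.1])) (subset_closure (by simp))
    (subset_closure (show b ∈ ({a, b} : Set G) by simp))
  exact (mem_cent1.1 this).symm

theorem Cf.PP (H : Cf T F) {a b : G} (ha : Dd T F a) (hb : Dd T F b) (hn : a * b ≠ b * a)
    {Y : Subgroup G} (hY : IsPGroup 2 Y) (hYF : Y ≤ 𝐍(F)) (hw : a * b ∈ 𝐍(Y)) : Y ≤ F := by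
  obtain ⟨k, h1, ho⟩ := H.dich ha hb hn
  exact H.P h1 ho ha.1 (inv_pow_conj (inv_mul_conj ha.1.1 hb.1.1) _)
    (pow_mem (mul_mem ha.2.1 hb.2.1) _) hY hYF (pow_mem hw _)

omit [Finite G] in
theorem pgroup_zpowers {x : G} {k : ℕ} (h : x ^ 2 ^ k = 1) : IsPGroup 2 (zpowers x) := by
  rintro ⟨_, j, rfl⟩
  refine ⟨k, Subtype.ext ?_⟩
  change (x ^ j) ^ (2 ^ k) = 1
  rw [← zpow_natCast, ← zpow_mul, mul_comm, zpow_mul, zpow_natCast, h, one_zpow]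

theorem Cf.tr (H : Cf T F) {a b c : G} (ha : Dd T F a) (hb : Dd T F b) (hc : Dd T F c)
    (h1 : a * b = b * a) (h2 : a * c = c * a) : b * c = c * b := by
  by_contra hn
  refine ha.2.2 (H.PP hb hc hn (pgroup_zpowers (k := 1) (by rw [pow_one, sq, ha.1.1]))
    (zpowers_le.2 (cent_le_norm F ha.2.1)) (cent_le_norm _ ?_) (mem_zpowers a))
  rw [cent_zpowers]
  exact mul_mem (mem_cent1.2 h1.symm) (mem_cent1.2 h2.symm)

theorem Cf.swap (H : Cf T F) {a b : G} (ha : Dd T F a) (hb : Dd T F b) (hn : a * b ≠ b * a) :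
    ∃ i, Dd T F i ∧ ∃ f ∈ F, i * a * i⁻¹ = f * b := by
  set x := a * b with hx
  obtain ⟨m, k, hm, hk⟩ := exists_pow_coprime_pow_pow_eq_one (p := 2) x
  have hxF : x ∈ 𝐂(F) := mul_mem ha.2.1 hb.2.1
  have hf : x ^ m ∈ F := H.PP ha hb hn (pgroup_zpowers hk)
    (zpowers_le.2 (cent_le_norm F (pow_mem hxF m)))
    (cent_le_norm _ (by rw [cent_zpowers]; exact cent1_le_cent1_pow x m (self_mem_cent1 x)))
    (mem_zpowers _)
  obtain ⟨l, rfl⟩ := Nat.coprime_two_right.1 hm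
  have hi := inv_mul_conj ha.1.1 hb.1.1
  rw [← hx] at hi
  have e1 : ∀ r : ℕ, a * (x ^ r)⁻¹ = x ^ r * a := fun r => by
    calc a * (x ^ r)⁻¹ = (a * x ^ r * a⁻¹)⁻¹ * a := by group
      _ = _ := by rw [inv_pow_conj hi, inv_inv]
  have eb : b = x⁻¹ * a := by
    rw [hx, mul_inv_rev, inv_mul_cancel_right, inv_eq_of_mul_eq_one_right hb.1.1]
  refine ⟨x ^ l * a, ?_, x ^ (2 * l + 1), hf, ?_⟩
  · rcases Nat.even_or_odd' l with ⟨r, rfl | rfl⟩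
    · have := ha.conj (pow_mem hxF r)
      rwa [mul_assoc, e1, ← mul_assoc, ← pow_add, ← two_mul] at this
    · have := hb.conj (pow_mem hxF (r + 1))
      rwa [eb, mul_assoc, mul_assoc, e1, ← mul_assoc, ← mul_assoc,
        show x ^ (r + 1) * x⁻¹ * x ^ (r + 1) = x ^ (2 * r + 1) by group] at this
  · calc x ^ l * a * a * (x ^ l * a)⁻¹ = x ^ l * (a * (x ^ l)⁻¹) := by group
      _ = _ := by rw [e1, eb]; group

theorem Cf.false (H : Cf T F) {a a' b : G} (ha : Dd T F a) (ha' : Dd T F a') (hb : Dd T F b)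
    (h1 : a * a' = a' * a) (h2 : a * a' ∉ F) (hn : a * b ≠ b * a) : False := by
  have hn' : a' * b ≠ b * a' := fun e => hn (H.tr ha' ha hb h1.symm e)
  obtain ⟨i, hi, f, hf, e⟩ := H.swap ha hb hn
  obtain ⟨j, hj, f', hf', e'⟩ := H.swap ha' hb hn'
  have ej : j⁻¹ = j := inv_eq_of_mul_eq_one_right hj.1.1
  have hfb : ∀ {f : G}, f ∈ F → f * b * b = b * (f * b) := fun {f} hf => by
    rw [← mul_assoc, ← hb.2.1 f hf]
  set 𝒜 : Set G := {x | Dd T F x ∧ x * a = a * x} with h𝒜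
  set A := closure 𝒜 with hA
  have hAF : A ≤ 𝐂(F) := (closure_le _).2 fun x hx => hx.1.2.1
  have hc : ∀ x ∈ A, ∀ y ∈ A, x * y = y * x := by
    have : 𝒜 ⊆ 𝐂(A) := fun x hx => cent_symm (A := A) (B := zpowers x) (by
      rw [cent_zpowers]
      exact (closure_le _).2 fun y hy => mem_cent1.2 (H.tr ha hy.1 hx.1 hy.2.symm hx.2.symm))
      (mem_zpowers x)
    exact le_cent_iff.1 ((closure_le _).2 this)
  have hA2 : IsPGroup 2 A := by
    rintro ⟨x, hx⟩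
    refine ⟨1, Subtype.ext ?_⟩
    change x ^ (2 ^ 1) = 1
    rw [pow_one, sq]
    induction hx using closure_induction with
    | mem x hx => exact hx.1.1.1
    | one => simp
    | mul x y hx hy ihx ihy =>
      calc x * y * (x * y) = x * (y * x) * y := by group
        _ = (x * x) * (y * y) := by rw [← hc x hx y hy]; group
        _ = 1 := by rw [ihx, ihy, one_mul]
    | inv x _ ih => rw [← mul_inv_rev, ih, inv_one]
  have haA : a ∈ A := subset_closure ⟨ha, rfl⟩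
  have hgF : j * i ∈ 𝐂(F) := mul_mem hj.2.1 hi.2.1
  have hg : j * i ∈ 𝐍(A) := by
    refine mem_normalizer_of_conj_le ?_
    rw [hA, MonoidHom.map_closure]
    refine closure_mono ?_
    rintro _ ⟨x, hx, rfl⟩
    change Dd T F (j * i * x * (j * i)⁻¹) ∧ _
    refine ⟨hx.1.conj hgF, ?_⟩
    have d1 := hx.1.conj hi.2.1
    have d2 := ha.conj hi.2.1
    have d3 := ha'.conj hj.2.1
    have c1 : i * a * i⁻¹ * (i * x * i⁻¹) = i * x * i⁻¹ * (i * a * i⁻¹) := by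
      calc _ = i * (a * x) * i⁻¹ := by group
        _ = _ := by rw [← hx.2]; group
    have c2 := H.tr d2 hb d1 (by rw [e]; exact hfb hf) c1
    have c3 := H.tr hb d3 d1 (by rw [e']; exact (hfb hf').symm) c2
    have c4 : a' * (j * i * x * (j * i)⁻¹) = (j * i * x * (j * i)⁻¹) * a' := by
      have e0 : j * i * x * (j * i)⁻¹ = j⁻¹ * (i * x * i⁻¹) * j := by
        rw [mul_inv_rev, ej]; group
      rw [e0]
      calc _ = j⁻¹ * (j * a' * j⁻¹ * (i * x * i⁻¹)) * j := by group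
        _ = _ := by rw [c3]; group
    exact (H.tr ha' ha (hx.1.conj hgF) h1.symm c4).symm
  by_cases hij : j * i = i * j
  · have hp : IsPGroup 2 (zpowers (j * i)) := pgroup_zpowers (k := 1) (by
      calc (j * i) ^ 2 ^ 1 = j * (i * j) * i := by rw [pow_one, sq]; group
        _ = (j * j) * (i * i) := by rw [← hij]; group
        _ = 1 := by rw [hj.1.1, hi.1.1, one_mul])
    have := mem_cent1.1 (H.Q ha (pgroup_sup hA2 hp (zpowers_le.2 hg))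
      (sup_le hAF (zpowers_le.2 hgF)) (mem_sup_left haA) (mem_sup_right (mem_zpowers _)))
    have e2 : j * a * j⁻¹ = f * b := by
      rw [← e]
      calc j * a * j⁻¹ = j⁻¹ * (a * (j * i)) * i⁻¹ := by rw [ej]; group
        _ = _ := by rw [← this]; group
    refine h2 ?_
    have e3 : j * (a * a') * j⁻¹ = f * f' := by
      calc _ = (j * a * j⁻¹) * (j * a' * j⁻¹) := by group
        _ = f * (b * (f' * b)) := by rw [e2, e']; group
        _ = _ := by rw [← hfb hf', mul_assoc f', hb.1.1, mul_one]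
    have := conj_mem_of_norm' (cent_le_norm F hj.2.1) (e3 ▸ mul_mem hf hf')
    rwa [show j⁻¹ * (j * (a * a') * j⁻¹) * j = a * a' by group] at this
  · exact ha.2.2 (H.PP hj hi hij hA2 (hAF.trans (cent_le_norm F)) hg haA)

theorem thmA (h : HT T) (hT : Syl 2 T ⊤) {z : G} (hz : z ∈ 𝐙(T)) (hz2 : z * z = 1)
    (hO : z ∉ pCore 2 G) : ∃ w : G, w ≠ 1 ∧ Odd (orderOf w) ∧
      (∃ a ∈ 𝐙(T), a * a = 1 ∧ a * w * a⁻¹ = w⁻¹) ∧
      ∀ a ∈ 𝐙(T), a * a = 1 → ∀ g : G, g * a * g⁻¹ ∈ 𝐍(zpowers w) := by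
  obtain ⟨w₀, h0⟩ := Inv.exists_odd_inverted_of_not_mem_pCore hz2 hO
  obtain ⟨w, ⟨h1, ho, a, ha, ha2, hi⟩, hmax⟩ := Set.exists_max_image
    {w : G | w ≠ 1 ∧ Odd (orderOf w) ∧ ∃ a ∈ 𝐙(T), a * a = 1 ∧ a * w * a⁻¹ = w⁻¹}
    (fun w => Nat.card ↥(T ⊓ 𝐂[w])) (Set.toFinite _) ⟨w₀, h0.1, h0.2.1, z, hz, hz2, h0.2.2⟩
  refine ⟨w, h1, ho, ⟨a, ha, ha2, hi⟩, ?_⟩
  suffices ∀ a' ∈ 𝐙(T), a' * a' = 1 → a' ∈ 𝐍(zpowers w) by
    intro a' ha' h2 g
    obtain ⟨n, hn, c, hc, e⟩ := h w h1 ho (isConj_iff.2 ⟨a, hi⟩) g⁻¹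
    have e2 : g = c⁻¹ * n⁻¹ := by rw [← mul_inv_rev, ← e, inv_inv]
    have hcw : c⁻¹ ∈ 𝐍(zpowers w) := cent_le_norm _ (by rw [cent_zpowers]; exact inv_mem hc)
    have := this (n⁻¹ * a' * n) (conj_mem_of_norm' (norm_center (zpowers_le.2 hn) (mem_zpowers n)) ha')
      (by calc _ = n⁻¹ * (a' * a') * n := by group
        _ = 1 := by rw [h2]; group)
    have := mul_mem (mul_mem hcw this) (inv_mem hcw)
    rwa [show c⁻¹ * (n⁻¹ * a' * n) * c⁻¹⁻¹ = c⁻¹ * n⁻¹ * a' * (c⁻¹ * n⁻¹)⁻¹ by group, ← e2] at this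
  intro a' ha' h2
  by_contra hna
  set F := T ⊓ 𝐂[w] with hF
  have hwF : w ∈ 𝐂(F) := le_cent1_iff.1 inf_le_right
  have hmx : ∀ w a g : G, w ≠ 1 → Odd (orderOf w) → a * a = 1 → a ∈ 𝐙(g ⋆ T) → a * w * a⁻¹ = w⁻¹ →
      Nat.card ↥(g ⋆ T ⊓ 𝐂[w]) ≤ Nat.card F := by
    intro v b g v1 vo b2 hb vi
    have := hmax (g⁻¹ * v * g⁻¹⁻¹) ⟨fun e => v1 (conj_eq_one_iff.1 e), by
      rwa [← MulAut.conj_apply, MulEquiv.orderOf_eq],
      g⁻¹ * b * g⁻¹⁻¹, by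
        have := (conj_mem_conj (g := g⁻¹)).2 hb
        rwa [conj_inf, conj_centralizer, inv_conj_conj] at this,
      by calc _ = g⁻¹ * (b * b) * g := by group
        _ = 1 := by rw [b2]; group,
      by calc _ = g⁻¹ * (b * v * b⁻¹) * g := by group
        _ = _ := by rw [vi]; group⟩
    rwa [← conj_cent1, ← card_conj g, conj_inf, conj_inv_conj] at this
  have hFp : IsPGroup 2 F := pgroup_of_le hT.pgroup inf_le_left
  have H : Cf T F := by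
    refine ⟨h, hT, hFp, hmx, ?_⟩
    have hp : IsPGroup 2 ((pCore 2 𝐂(F)).map (𝐂(F)).subtype) := (Core.pCore_isPGroup 2 _).map _
    have hle : (pCore 2 𝐂(F)).map (𝐂(F)).subtype ≤ 𝐂(F) := map_subtype_le _
    obtain ⟨c, -, hc⟩ := h.inv_le hT (g := 1) h1 ho ha2 (by rwa [conj_one]) hi
      (pgroup_sup hFp hp (hle.trans (cent_le_norm F)))
      (norm_sup (zpowers_le.2 (cent_le_norm F hwF)) (zpowers_le.2 ((Nml.of_normal _ _).norm hwF))
        (mem_zpowers w))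
    have := card_le_of_le hc
    rw [card_conj, conj_one] at this
    exact le_sup_right.trans (eq_of_le_of_card_le le_sup_left this).ge
  have hww : ∀ k : ℕ, w ^ 2 ^ k ≠ 1 := fun k e =>
    h1 (eq_one_of_pow_pow_eq_one_of_coprime e (Nat.coprime_two_right.2 ho))
  have hZ : ∀ b ∈ 𝐙(T), b * b = 1 → b ∉ F → Dd T F b := fun b hb b2 bF =>
    ⟨⟨b2, 1, by rwa [conj_one]⟩, cent_anti inf_le_left hb.2, bF⟩
  have haN : a ∈ 𝐍(zpowers w) := norm_of_conj_eq (by rw [conj_zpowers, hi, zpowers_inv])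
  have hFN : F ≤ 𝐍(zpowers w) := inf_le_right.trans (by rw [← cent_zpowers]; exact cent_le_norm _)
  have da : Dd T F a := hZ a ha ha2 fun h' => hww 1 (by
    rw [mem_cent1.1 (mem_inf.1 h').2, mul_inv_cancel_right] at hi
    rw [pow_one, sq, mul_eq_one_iff_eq_inv.2 hi])
  refine H.false da (hZ a' ha' h2 fun h' => hna (hFN h')) (da.conj hwF) (ha'.2 a ha.1)
    (fun h' => hna ((mul_mem_cancel_left haN).1 (hFN h'))) fun e => hww 2 ?_
  have ea : a⁻¹ = a := inv_eq_of_mul_eq_one_right ha2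
  have e1 : a * (w * a * w⁻¹) = (w ^ 2)⁻¹ := by
    calc _ = (a * w * a⁻¹) * w⁻¹ := by rw [ea]; group
      _ = _ := by rw [hi, sq]; group
  have e2 : w * a * w⁻¹ * a = w ^ 2 := by
    calc _ = w * (a * w * a⁻¹)⁻¹ := by nth_rewrite 2 [← ea]; group
      _ = _ := by rw [hi, sq, inv_inv]
  rw [e1, e2] at e
  rw [show 2 ^ 2 = 2 + 2 from rfl, pow_add, mul_eq_one_iff_eq_inv, e]

end Cfsg.Lib.RCl
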